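/-
Representations of extraspecial groups: the images of a transversal of the centre are independent,
and the resulting lower bounds for the dimension.
-/
import Cfsg.Agent.Grp.ExtraBasic
import Cfsg.Agent.Known.LSWeight

set_option autoImplicit false

open Cfsg Module

namespace CL.Grp

namespace Heis

variable {p : ℕ} [hp : Fact p.Prime] {E : Type*} [Group E] {V : Type*} [AddCommGroup V] [Module (ZMod p) V]
  (H : Heis p E V) {K U : Type*} [Field K] [AddCommGroup U] [Module K U]

theorem rep_ι (ρ : Representation K E U) {ζ : K} (h : ρ (H.ι 1) = ζ • 1) (s : ZMod p) :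
    ρ (H.ι s) = ζ ^ s.val • 1 := by
  rw [H.ι_eq_pow_val, map_pow, h, smul_pow, one_pow]

theorem rep_indep (hN : ∀ x, (∀ y, H.B x y = 0) → x = 0) [Nontrivial U] (ρ : Representation K E U) {ζ : K}
    (hζ : IsPrimitiveRoot ζ p) (h : ρ (H.ι 1) = ζ • 1) : LinearIndependent K fun v => ρ (H.σ v) := by
  refine CL.LS.linearIndependent_of_weights (fun g : E => LinearMap.mulLeftRight K (ρ g, ρ g⁻¹))
    (fun v g => ζ ^ (H.B (H.π g) v).val) (fun v w e => ?_) _ (fun v g => ?_) fun v e => ?_
  · refine sub_eq_zero.1 (hN _ fun y => ?_)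
    obtain ⟨g, rfl⟩ := H.π_surj y
    rw [H.B_swap, map_sub, ZMod.val_injective p (hζ.pow_inj (ZMod.val_lt _) (ZMod.val_lt _) (congrFun e g)),
      sub_self, neg_zero]
  · rw [LinearMap.mulLeftRight_apply, ← map_mul, ← map_mul, H.conj_eq, map_mul, H.rep_ι ρ h, H.π_σ,
      mul_smul_comm, mul_one]
  · exact one_ne_zero (by rw [← map_one ρ, ← mul_inv_cancel (H.σ v), map_mul, e, zero_mul])

theorem card_le_finrank_sq (hN : ∀ x, (∀ y, H.B x y = 0) → x = 0) [Nontrivial U] [Module.Finite K U]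
    (ρ : Representation K E U) {ζ : K} (hζ : IsPrimitiveRoot ζ p) (h : ρ (H.ι 1) = ζ • 1) :
    Nat.card V ≤ finrank K U ^ 2 := by
  rw [sq, ← finrank_linearMap K K U U]
  exact Cardinal.toNat_le_toNat (H.rep_indep hN ρ hζ h).cardinal_lift_le_rank (by simp [rank_lt_aleph0]) |>.trans_eq'
    (by simp [Nat.card]) |>.trans_eq (by simp [finrank])

/-- every eigenspace of the central element for a primitive root of unity is large. -/
theorem card_le_finrank_eigenspace_sq (hN : ∀ x, (∀ y, H.B x y = 0) → x = 0) [Module.Finite K U]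
    (ρ : Representation K E U) {ζ : K} (hζ : IsPrimitiveRoot ζ p) (h : End.HasEigenvalue (ρ (H.ι 1)) ζ) :
    Nat.card V ≤ finrank K (End.eigenspace (ρ (H.ι 1)) ζ) ^ 2 := by
  have := Submodule.nontrivial_iff_ne_bot.2 (End.hasEigenvalue_iff.1 h)
  refine H.card_le_finrank_sq hN (ρ.subrepresentation _ fun g u hu => ?_) hζ
    (LinearMap.ext fun u => Subtype.ext (End.mem_eigenspace_iff.1 u.2))
  rw [Submodule.mem_comap, End.mem_eigenspace_iff, ← End.mul_apply, ← map_mul, ← H.ι_comm, map_mul, End.mul_apply,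
    End.mem_eigenspace_iff.1 hu, map_smul]

end Heis

theorem exists_primitive_eigenvalue {K U : Type*} [Field K] [IsAlgClosed K] [AddCommGroup U] [Module K U]
    [Module.Finite K U] {p : ℕ} [hp : Fact p.Prime] (h0 : (p : K) ≠ 0) {T : End K U} (h1 : T ^ p = 1) (h2 : T ≠ 1) :
    ∃ ζ, IsPrimitiveRoot ζ p ∧ T.HasEigenvalue ζ := by
  have hi : ∀ u ∈ LinearMap.range (T - 1), T u ∈ LinearMap.range (T - 1) := by
    rintro _ ⟨x, rfl⟩
    exact ⟨T x, by simp⟩
  have := Submodule.nontrivial_iff_ne_bot.2 (show LinearMap.range (T - 1) ≠ ⊥ from fun e =>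
    h2 (sub_eq_zero.1 (LinearMap.range_eq_bot.1 e)))
  obtain ⟨c, hc⟩ := End.exists_eigenvalue (T.restrict hi)
  obtain ⟨⟨u, x, hx⟩, hu⟩ := hc.exists_hasEigenvector
  have u0 : u ≠ 0 := fun e => hu.2 (Subtype.ext e)
  have hu' : T.HasEigenvector c u := ⟨End.mem_eigenspace_iff.2 (congrArg Subtype.val hu.apply_eq_smul), u0⟩
  have e1 : c ^ p = 1 := by
    have := hu'.pow_apply p
    rw [h1, End.one_apply] at this
    exact smul_left_injective K u0 (by simpa using this.symm)
  have e2 : c ≠ 1 := by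
    rintro rfl
    have e3 : (∑ i ∈ Finset.range p, T ^ i) u = 0 := by rw [← hx, ← End.mul_apply, geom_sum_mul, h1, sub_self]; rfl
    simp only [LinearMap.sum_apply, hu'.pow_apply, one_pow, one_smul, Finset.sum_const, Finset.card_range,
      ← Nat.cast_smul_eq_nsmul K] at e3
    exact u0 ((smul_eq_zero.1 e3).resolve_left h0)
  exact ⟨c, orderOf_eq_prime e1 e2 ▸ IsPrimitiveRoot.orderOf c, End.hasEigenvalue_of_hasEigenvector hu'⟩

end CL.Grp
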