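/-
An irreducible module generated by a quadratic pair: root element, torus element and `-1` adapted to
the fixed line of the first generator.
-/
import Cfsg.Agent.Loc.QuadDickson

set_option autoImplicit false

open Cfsg CL.Loc Matrix

namespace CL.Grp

variable {p : ℕ} [hp : Fact p.Prime]

/-- a power `g ^ n` with `n ≡ 1 (mod p)` is a `p`-element -/
theorem exists_pow_pElement_modEq {L : Type*} [Group L] [Finite L] (g : L) :
    ∃ n : ℕ, n ≡ 1 [MOD p] ∧ ∃ k : ℕ, (g ^ n) ^ p ^ k = 1 := by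
  obtain ⟨k, m, hm, e⟩ := Nat.exists_eq_pow_mul_and_not_dvd (orderOf_pos g).ne' p hp.out.ne_one
  have hc : m.Coprime p := ((Nat.Prime.coprime_iff_not_dvd hp.out).2 hm).symm
  refine ⟨m ^ (p - 1), ?_, k, ?_⟩
  · rw [← Nat.totient_prime hp.out]; exact Nat.ModEq.pow_totient hc
  · rw [← pow_mul, ← orderOf_dvd_iff_pow_eq_one, e, mul_comm]
    exact Nat.mul_dvd_mul_right (dvd_pow_self m (by have := hp.out.two_le; omega)) _

theorem sl2Up_natPow {K : Type*} [Field K] (s : K) (n : ℕ) : sl2Up s ^ n = sl2Up (n * s) := by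
  induction n with
  | zero => ext i j; fin_cases i <;> fin_cases j <;> simp [sl2Up_coe]
  | succ n ih =>
    rw [pow_succ, ih]
    ext i j
    fin_cases i <;> fin_cases j <;> simp [sl2Up_coe, Matrix.mul_apply, Fin.sum_univ_two]
    ring

variable {W L : Type*} [AddCommGroup W] [Module (ZMod p) W] [Group L]

theorem exists_rep_fixed_ne_zero [Finite W] [Finite L] (ρ : L →* Module.End (ZMod p) W) {Q : Subgroup L}
    (hQ : IsPGroup p Q) {x : W} (hx : x ≠ 0) : ∃ u : W, u ≠ 0 ∧ ∀ g ∈ Q, ρ g u = u := by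
  let _ : MulAction Q W := MulAction.compHom W (ρ.comp Q.subtype)
  have hd : p ∣ Nat.card W := by
    have h1 : addOrderOf x = p := addOrderOf_eq_prime (by
      rw [← Nat.cast_smul_eq_nsmul (ZMod p), ZMod.natCast_self, zero_smul]) hx
    exact h1 ▸ addOrderOf_dvd_natCard x
  obtain ⟨u, hu, hne⟩ := hQ.exists_fixed_point_of_prime_dvd_card_of_fixed_point W hd
    (a := 0) (fun g => map_zero (ρ g))
  exact ⟨u, hne.symm, fun g hg => hu ⟨g, hg⟩⟩

/-- the fixed space of `a` is one-dimensional over the commuting ring -/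
theorem exists_commute_of_quad_irr (ρ : L →* Module.End (ZMod p) W) {a b : L}
    (hA : (ρ a - 1) * (ρ a - 1) = 0) (hB : (ρ b - 1) * (ρ b - 1) = 0)
    (hgen : ∀ g : L, ∃ h ∈ Subgroup.closure ({a, b} : Set L), ρ g = ρ h)
    (hirr : ∀ U : Submodule (ZMod p) W, (∀ g : L, ∀ x ∈ U, ρ g x ∈ U) → U = ⊥ ∨ U = ⊤)
    (hnp : ∃ g : L, ∀ k : ℕ, ρ g ^ p ^ k ≠ 1) {u x : W} (hu : u ≠ 0) (hau : ρ a u = u)
    (hax : ρ a x = x) : ∃ d : Module.End (ZMod p) W, (∀ g y, d (ρ g y) = ρ g (d y)) ∧ x = d u := by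
  set A := ρ a - 1 with hAd
  set B := ρ b - 1 with hBd
  have hcl : ∀ {P : Module.End (ZMod p) W → Prop}, P 1 → (∀ x y, P x → P y → P (x * y)) →
      P (ρ a) → P (ρ b) → P (ρ a⁻¹) → P (ρ b⁻¹) → ∀ g, P (ρ g) := by
    intro P h1 hm ha hb ha' hb' g
    obtain ⟨h, hh, e⟩ := hgen g
    rw [e]
    clear e
    induction hh using Subgroup.closure_induction'' with
    | mem x hx => rcases hx with rfl | rfl <;> assumption
    | inv_mem x hx => rcases hx with rfl | rfl <;> assumption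
    | one => rwa [map_one]
    | mul x y _ _ hx hy => rw [map_mul]; exact hm _ _ hx hy
  have ea : ρ a = 1 + A := by rw [hAd]; abel
  have eb : ρ b = 1 + B := by rw [hBd]; abel
  have ea' : ρ a⁻¹ = 1 - A := by rw [sub_eq_add_neg, ← quad_inv_eq ρ hA]; abel
  have eb' : ρ b⁻¹ = 1 - B := by rw [sub_eq_add_neg, ← quad_inv_eq ρ hB]; abel
  have hZ : ∀ g, Commute (A * B + B * A) (ρ g) :=
    hcl (P := Commute (A * B + B * A)) (Commute.one_right _) (fun _ _ => Commute.mul_right)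
      (ea ▸ (Commute.one_right _).add_right (quadZ_commute_left hA))
      (eb ▸ (Commute.one_right _).add_right (quadZ_commute_right hB))
      (ea' ▸ (Commute.one_right _).sub_right (quadZ_commute_left hA))
      (eb' ▸ (Commute.one_right _).sub_right (quadZ_commute_right hB))
  have hZ' : ∀ g y, (A * B + B * A) (ρ g y) = ρ g ((A * B + B * A) y) := fun g y =>
    LinearMap.congr_fun (hZ g).eq y
  have hinj : ∀ y, (A * B + B * A) y = 0 → y = 0 := by
    rcases hirr (LinearMap.ker (A * B + B * A)) (fun g y hy => by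
      rw [LinearMap.mem_ker] at hy ⊢
      rw [hZ', hy, map_zero]) with h | h
    · exact fun y hy => by rw [← Submodule.mem_bot (ZMod p), ← h]; exact hy
    · exfalso
      obtain ⟨g, hg⟩ := hnp
      obtain ⟨h', hh, e⟩ := hgen g
      obtain ⟨k, hk⟩ := exists_pow_eq_one_of_isNilpotent (p := p) (isNilpotent_sub_one_of_quad ρ hA hB
        (by rw [LinearMap.ker_eq_top.1 h]; exact IsNilpotent.zero) hh)
      exact hg k (e ▸ hk)
  have hAu : A u = 0 := by rw [hAd, LinearMap.sub_apply, hau, Module.End.one_apply, sub_self]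
  have hAx : A x = 0 := by rw [hAd, LinearMap.sub_apply, hax, Module.End.one_apply, sub_self]
  have hBB : ∀ y, B (B y) = 0 := fun y => LinearMap.congr_fun hB y
  have hdA : ∀ d : Module.End (ZMod p) W, (∀ g y, d (ρ g y) = ρ g (d y)) → ∀ y, A (d y) = d (A y) :=
    fun d hd y => by simp only [hAd, LinearMap.sub_apply, Module.End.one_apply, map_sub, hd]
  have hdB : ∀ d : Module.End (ZMod p) W, (∀ g y, d (ρ g y) = ρ g (d y)) → ∀ y, B (d y) = d (B y) :=
    fun d hd y => by simp only [hBd, LinearMap.sub_apply, Module.End.one_apply, map_sub, hd]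
  have hZu : (A * B + B * A) u = A (B u) := by
    simp only [LinearMap.add_apply, Module.End.mul_apply, hAu, map_zero, add_zero]
  let U : Submodule (ZMod p) W :=
    { carrier := {y | ∃ d₁ d₂ : Module.End (ZMod p) W, (∀ g y, d₁ (ρ g y) = ρ g (d₁ y)) ∧
        (∀ g y, d₂ (ρ g y) = ρ g (d₂ y)) ∧ y = d₁ u + d₂ (B u)}
      add_mem' := by
        rintro _ _ ⟨d₁, d₂, h1, h2, rfl⟩ ⟨e₁, e₂, h3, h4, rfl⟩
        exact ⟨d₁ + e₁, d₂ + e₂, fun g y => by simp [h1, h3], fun g y => by simp [h2, h4],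
          by simp only [LinearMap.add_apply]; abel⟩
      zero_mem' := ⟨0, 0, by simp, by simp, by simp⟩
      smul_mem' := by
        rintro c _ ⟨d₁, d₂, h1, h2, rfl⟩
        exact ⟨c • d₁, c • d₂, fun g y => by simp [h1], fun g y => by simp [h2], by simp⟩ }
  have hUA : ∀ y ∈ U, A y ∈ U := by
    rintro _ ⟨d₁, d₂, h1, h2, rfl⟩
    refine ⟨d₂ * (A * B + B * A), 0, fun g y => ?_, by simp, ?_⟩
    · rw [Module.End.mul_apply, Module.End.mul_apply, hZ', h2]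
    · rw [map_add, hdA _ h1, hdA _ h2, hAu, Module.End.mul_apply, hZu]; simp
  have hUB : ∀ y ∈ U, B y ∈ U := by
    rintro _ ⟨d₁, d₂, h1, h2, rfl⟩
    refine ⟨0, d₁, by simp, h1, ?_⟩
    rw [map_add, hdB _ h1, hdB _ h2, hBB]; simp
  have hU : ∀ g : L, ∀ y ∈ U, ρ g y ∈ U :=
    hcl (P := fun f => ∀ y ∈ U, f y ∈ U) (fun _ h => h) (fun _ _ h1 h2 y hy => h1 _ (h2 y hy))
      (fun y hy => ea ▸ U.add_mem hy (hUA y hy)) (fun y hy => eb ▸ U.add_mem hy (hUB y hy))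
      (fun y hy => ea' ▸ U.sub_mem hy (hUA y hy)) (fun y hy => eb' ▸ U.sub_mem hy (hUB y hy))
  rcases hirr U hU with h | h
  · have : u ∈ U := ⟨1, 0, by simp, by simp, by simp⟩
    rw [h] at this
    exact absurd this hu
  obtain ⟨d₁, d₂, h1, h2, e⟩ : x ∈ U := h ▸ Submodule.mem_top
  refine ⟨d₁, h1, ?_⟩
  have h3 : d₂ u = 0 := hinj _ (by
    rw [e, map_add, hdA _ h1, hAu, map_zero, zero_add, ← hdB _ h2] at hAx
    rw [LinearMap.add_apply, Module.End.mul_apply, Module.End.mul_apply, hAx, hdA _ h2, hAu]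
    simp)
  rw [e, ← hdB _ h2, h3, map_zero, add_zero]

/-- Root element `z`, torus element `t` and `i = -1` adapted to the fixed space of `a`. -/
theorem exists_torus_of_quad_irr [Finite W] [Finite L] (hp2 : p ≠ 2)
    (ρ : L →* Module.End (ZMod p) W) {a b : L}
    (hA : (ρ a - 1) * (ρ a - 1) = 0) (hB : (ρ b - 1) * (ρ b - 1) = 0)
    (hgen : ∀ g : L, ∃ h ∈ Subgroup.closure ({a, b} : Set L), ρ g = ρ h)
    (hirr : ∀ U : Submodule (ZMod p) W, (∀ g : L, ∀ x ∈ U, ρ g x ∈ U) → U = ⊥ ∨ U = ⊤)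
    (hnp : ∃ g : L, ∀ k : ℕ, ρ g ^ p ^ k ≠ 1) (ha : ∃ k : ℕ, a ^ p ^ k = 1) {c : ZMod p}
    (hc : c ≠ 0) :
    ∃ z t i : L, (∃ k : ℕ, z ^ p ^ k = 1) ∧ (∀ x, ρ i x = -x) ∧ ∀ w, ρ a w = w →
      ρ z w = w ∧ ρ t w = c • w ∧
        ∃ v, ρ z v = v + w ∧ ρ t v = c⁻¹ • v := by
  obtain ⟨K, φ, j, -, hφ, hj, hK⟩ := exists_natural_SL2_of_quad (dicksonSL2 hp2) ρ hA hB (by
    obtain ⟨g, hg⟩ := hnp
    obtain ⟨h, hh, e⟩ := hgen g
    exact ⟨h, hh, e ▸ hg⟩)
  obtain ⟨k₀, hk₀⟩ := hφ (sl2Up 1)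
  obtain ⟨n, hn, k, hk⟩ := exists_pow_pElement_modEq (p := p) k₀
  have hz₀ : φ (k₀ ^ n) = sl2Up 1 := by
    rw [map_pow, hk₀, sl2Up_natPow, mul_one, (ZMod.natCast_eq_natCast_iff _ _ _).2 hn, Nat.cast_one]
  obtain ⟨t₀, ht₀⟩ := hφ ⟨!![c, 0; 0, c⁻¹], by simp [det_fin_two, hc]⟩
  obtain ⟨i₀, hi₀⟩ := hφ ⟨!![-1, 0; 0, -1], by simp [det_fin_two]⟩
  have hpa : IsPGroup p (Subgroup.zpowers a) := by
    obtain ⟨m, hm⟩ := ha
    exact IsPGroup.of_card_dvd_pow (n := m) (by rw [Nat.card_zpowers]; exact orderOf_dvd_of_pow_eq_one hm)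
  have hk' : ((k₀ ^ n : K) : L) ^ p ^ k = 1 := by exact_mod_cast hk
  have hpz : IsPGroup p (Subgroup.zpowers ((k₀ ^ n : K) : L)) :=
    IsPGroup.of_card_dvd_pow (n := k) (by rw [Nat.card_zpowers]; exact orderOf_dvd_of_pow_eq_one hk')
  obtain ⟨P₁, hP₁⟩ := hpa.exists_le_sylow
  obtain ⟨P₂, hP₂⟩ := hpz.exists_le_sylow
  obtain ⟨l, hl⟩ := MulAction.exists_smul_eq L P₂ P₁
  have hz : l * (k₀ ^ n : K) * l⁻¹ ∈ (P₁ : Subgroup L) := by
    rw [← hl]
    exact Subgroup.smul_mem_pointwise_smul _ (MulAut.conj l) _ (hP₂ (Subgroup.mem_zpowers _))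
  have hcj : ∀ (g : K) (x), ρ (l * g * l⁻¹) (ρ l (j x)) = ρ l (j ((φ g).1 *ᵥ x)) := fun g x => by
    rw [← hK, ← Module.End.mul_apply, ← map_mul, inv_mul_cancel_right, map_mul, Module.End.mul_apply]
  set e₁ := ρ l (j ![1, 0]) with he₁
  set e₂ := ρ l (j ![0, 1]) with he₂
  set z := l * (k₀ ^ n : K) * l⁻¹ with hzd
  have he₁0 : e₁ ≠ 0 := fun h => by
    have h1 : j ![1, 0] = 0 := by
      have : ρ l⁻¹ e₁ = j ![1, 0] := by
        rw [he₁, ← Module.End.mul_apply, ← map_mul, inv_mul_cancel, map_one, Module.End.one_apply]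
      rw [← this, h, map_zero]
    have h2 := congrFun (hj (h1.trans (map_zero j).symm)) 0
    simp at h2
  have hz1 : ρ z e₁ = e₁ := by
    rw [hcj, hz₀, he₁]; congr 2; ext i; fin_cases i <;> simp [sl2Up_coe]
  have hz2 : ρ z e₂ = e₂ + e₁ := by
    rw [hcj, hz₀, he₁, he₂, ← map_add, ← map_add]; congr 2; ext i; fin_cases i <;> simp [sl2Up_coe]
  have ht1 : ρ (l * t₀ * l⁻¹) e₁ = c • e₁ := by
    rw [hcj, ht₀, he₁, ← map_smul, ← map_smul]; congr 2; ext i; fin_cases i <;> simp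
  have ht2 : ρ (l * t₀ * l⁻¹) e₂ = c⁻¹ • e₂ := by
    rw [hcj, ht₀, he₂, ← map_smul, ← map_smul]; congr 2; ext i; fin_cases i <;> simp
  have hi1 : ρ (l * i₀ * l⁻¹) e₁ = -e₁ := by
    rw [hcj, hi₀, he₁, ← map_neg, ← map_neg]; congr 2; ext i; fin_cases i <;> simp
  have hi2 : ρ (l * i₀ * l⁻¹) e₂ = -e₂ := by
    rw [hcj, hi₀, he₂, ← map_neg, ← map_neg]; congr 2; ext i; fin_cases i <;> simp
  obtain ⟨u, hu, huP⟩ := exists_rep_fixed_ne_zero ρ P₁.isPGroup' he₁0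
  have key := fun {u x : W} => exists_commute_of_quad_irr ρ hA hB hgen hirr hnp (u := u) (x := x)
  have hfix : ∀ x, ρ a x = x → ρ z x = x := fun x hx => by
    obtain ⟨d, hd, rfl⟩ := key hu (huP a (hP₁ (Subgroup.mem_zpowers a))) hx
    rw [← hd, huP z hz]
  have hdec : ∀ y, ρ a y ≠ y → ∀ x, ∃ d : Module.End (ZMod p) W, (∀ g y, d (ρ g y) = ρ g (d y)) ∧
      ρ a (x - d y) = x - d y := fun y hy x => by
    have h1 : ∀ x, ρ a (ρ a x - x) = ρ a x - x := fun x => by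
      have := LinearMap.congr_fun hA x
      simp only [Module.End.mul_apply, LinearMap.sub_apply, Module.End.one_apply,
        LinearMap.zero_apply] at this
      exact sub_eq_zero.1 this
    obtain ⟨d, hd, e⟩ := key (sub_ne_zero.2 hy) (h1 y) (h1 x)
    refine ⟨d, hd, ?_⟩
    rw [map_sub d, hd] at e
    rw [map_sub, sub_eq_sub_iff_sub_eq_sub, e]
  have hne : ρ z e₂ ≠ e₂ := fun h => he₁0 (by rwa [hz2, add_eq_left] at h)
  have ha1 : ρ a e₁ = e₁ := by
    by_contra h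
    obtain ⟨d, hd, e⟩ := hdec e₁ h e₂
    have := hfix _ e
    rw [map_sub, ← hd, hz1, sub_left_inj] at this
    exact hne this
  refine ⟨z, l * t₀ * l⁻¹, l * i₀ * l⁻¹, ⟨k, by rw [hzd, conj_pow, hk', mul_one, mul_inv_cancel]⟩,
    fun x => ?_, fun w hw => ⟨hfix w hw, ?_⟩⟩
  · obtain ⟨d, hd, e⟩ := hdec e₂ (fun h => hne (hfix _ h)) x
    obtain ⟨d', hd', e'⟩ := key he₁0 ha1 e
    rw [sub_eq_iff_eq_add.1 e', map_add, ← hd, ← hd', hi1, hi2, map_neg, map_neg, neg_add]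
  · obtain ⟨d, hd, rfl⟩ := key he₁0 ha1 hw
    exact ⟨by rw [← hd, ht1, map_smul], d e₂, by rw [← hd, hz2, map_add], by rw [← hd, ht2, map_smul]⟩

end CL.Grp
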