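/-
Recognition of Glauberman's group `F(p)` as a section.
-/
import Cfsg.Agent.Grp.QuadTorus
import Cfsg.Agent.Grp.Coprime
import Cfsg.Agent.Loc.QuadQd
import Cfsg.Agent.Loc.Involves2
import Cfsg.Agent.Even.Amb2

set_option autoImplicit false

open Cfsg Subgroup CL.Loc CL.Even Matrix

namespace CL.Grp

/-- upper triangular element of `SL₂` -/
def sl2Bor {K : Type*} [Field K] (α : K) (hα : α ≠ 0) (s : K) : Matrix.SpecialLinearGroup (Fin 2) K :=
  ⟨!![α, s; 0, α⁻¹], by simp [det_fin_two, hα]⟩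

theorem sl2Bor_coe {K : Type*} [Field K] (α : K) (hα : α ≠ 0) (s : K) :
    (sl2Bor α hα s).1 = !![α, s; 0, α⁻¹] := rfl

theorem sl2Bor_pow {K : Type*} [Field K] {α : K} (hα : α ≠ 0) (s : K) (k : ℕ) :
    ∃ t, sl2Bor α hα s ^ k = sl2Bor (α ^ k) (pow_ne_zero k hα) t := by
  induction k with
  | zero => exact ⟨0, by ext i j; fin_cases i <;> fin_cases j <;> simp [sl2Bor_coe]⟩
  | succ k ih =>
    obtain ⟨t, ht⟩ := ih
    refine ⟨α ^ k * s + t * α⁻¹, ?_⟩
    rw [pow_succ, ht]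
    ext i j
    fin_cases i <;> fin_cases j <;>
      simp [sl2Bor_coe, Matrix.mul_apply, Fin.sum_univ_two, pow_succ, mul_comm]

theorem sl2Up_mul_sl2Bor {K : Type*} [Field K] {α : K} (hα : α ≠ 0) (s t : K) :
    sl2Up ((s - t) * α) * sl2Bor α hα t = sl2Bor α hα s := by
  ext i j
  fin_cases i <;> fin_cases j <;> simp [sl2Bor_coe, sl2Up_coe, Matrix.mul_apply, Fin.sum_univ_two, hα]

variable {p : ℕ} [hp : Fact p.Prime]

theorem sl2Bor_neg_one_pow (hp2 : p ≠ 2) (h : (-1 : ZMod p) ≠ 0) (s : ZMod p) (m : ℕ) :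
    (sl2Bor (-1) h s ^ p) ^ p ^ m = -1 := by
  have e : sl2Bor (-1) h s = -sl2Up (-s) := by
    ext i j
    fin_cases i <;> fin_cases j <;> simp [sl2Bor_coe, sl2Up_coe]
  have ho := hp.out.odd_of_ne_two hp2
  have e1 : sl2Up (0 : ZMod p) = 1 := by
    ext i j
    fin_cases i <;> fin_cases j <;> simp [sl2Up_coe]
  rw [e, ho.neg_pow, sl2Up_natPow, ZMod.natCast_self, zero_mul, e1, (ho.pow (n := m)).neg_one_pow]

theorem fOver_eq_of {a : ZMod p} (ha0 : a ≠ 0) (ha : ∀ x : ZMod p, x ≠ 0 → ∃ k : ℕ, a ^ k = x)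
    (s : ZMod p) {Y : Subgroup (Matrix.SpecialLinearGroup (Fin 3) (ZMod p))}
    (h1 : ∀ v, qdAff v 1 ∈ Y) (h2 : qdLin (sl2Up 1) ∈ Y) (h3 : qdLin (sl2Bor a ha0 s) ∈ Y) :
    fOver (ZMod p) ≤ Y := by
  rw [fOver, closure_le]
  rintro M ⟨e0, e1, e2, e3⟩
  obtain ⟨v, N, rfl⟩ := mem_qd_iff.1 (show M ∈ qd p from Subgroup.subset_closure ⟨e1, e2, e3⟩)
  have hN : N.1 1 0 = 0 := by simpa [qdAff_coe] using e0
  have hd := N.det_coe
  rw [det_fin_two, hN, mul_zero, sub_zero] at hd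
  have hα : N.1 0 0 ≠ 0 := left_ne_zero_of_mul_eq_one hd
  obtain ⟨k, hk⟩ := ha _ hα
  obtain ⟨t, ht⟩ := sl2Bor_pow ha0 s k
  have e : N = sl2Up 1 ^ ((N.1 0 1 - t) * a ^ k).val * sl2Bor a ha0 s ^ k := by
    rw [sl2Up_natPow, mul_one, ZMod.natCast_zmod_val, ht, sl2Up_mul_sl2Bor]
    ext i j
    fin_cases i <;> fin_cases j <;> simp [sl2Bor_coe, hk, hN]
    exact eq_inv_of_mul_eq_one_right hd
  have e' : qdAff v N = qdAff v 1 * qdLin N := by rw [qdLin_apply, qdAff_mul]; simp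
  rw [SetLike.mem_coe, e', e, map_mul, map_pow, map_pow]
  exact mul_mem (h1 v) (mul_mem (pow_mem h2 _) (pow_mem h3 _))

theorem natCast_ne_zero_of_primitive (hp2 : p ≠ 2) {a : ZMod p}
    (ha : ∀ x : ZMod p, x ≠ 0 → ∃ k : ℕ, a ^ k = x) : a ≠ 0 := by
  rintro rfl
  obtain ⟨k, hk⟩ := ha (-1) (neg_ne_zero.2 one_ne_zero)
  rcases k with _ | k
  · have : Fact (2 < p) := ⟨lt_of_le_of_ne hp.out.two_le hp2.symm⟩
    exact ZMod.neg_one_ne_one (hk.symm.trans (pow_zero _))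
  · simp at hk

/-- the configuration `⟨w, v⟩ ⋊ ⟨z, h⟩` gives a section `F(p)` -/
theorem involves_fOver_of_rel (hp2 : p ≠ 2) {X : Type*} [Group X] [Finite X] {R : Subgroup X}
    {h z v w : X} {a j : ℕ} (ha : ∀ x : ZMod p, x ≠ 0 → ∃ k : ℕ, (a : ZMod p) ^ k = x)
    (hR : IsPGroup p R) (hh : h ∈ 𝒩(R)) (hz : z ∈ R) (w1 : w ≠ 1)
    (wp : w ^ p = 1) (vp : v ^ p = 1) (vw : v * w = w * v) (zw : z * w * z⁻¹ = w)
    (zv : z * v * z⁻¹ = v * w) (hw : h * w * h⁻¹ = w ^ a) (hv : h * v ^ a * h⁻¹ = v * w ^ j) :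
    Involves (fOver (ZMod p)) X := by
  have ha0 := natCast_ne_zero_of_primitive hp2 ha
  set U := closure ({w, v} : Set X) with hUd
  have hU : IsElementaryAbelian p U := ea_closure (by
    rintro _ (rfl | rfl) _ (rfl | rfl) <;> simp [vw]) (by rintro _ (rfl | rfl) <;> assumption)
  have wU : w ∈ U := subset_closure (by simp)
  have vU : v ∈ U := subset_closure (by simp)
  have hN : ∀ g : X, g * w * g⁻¹ ∈ U → g * v * g⁻¹ ∈ U → g ∈ 𝒩(U) := fun g h1 h2 =>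
    mem_norm_of_cj_le (by
      rw [cj_le_iff, hUd, closure_le]
      rintro _ (rfl | rfl) <;> (rw [SetLike.mem_coe, mem_cj, inv_inv]; assumption))
  have zN : z ∈ 𝒩(U) := hN z (by rw [zw]; exact wU) (zv ▸ mul_mem vU wU)
  have hv' : h * v * h⁻¹ = (v * w ^ j) ^ ((a : ZMod p)⁻¹).val := by
    rw [← hv, conj_pow, ← pow_mul]
    congr 2
    rw [← pow_one v, ← pow_mul, pow_eq_pow_iff_modEq]
    refine Nat.ModEq.of_dvd (orderOf_dvd_of_pow_eq_one vp) ((ZMod.natCast_eq_natCast_iff _ _ _).1 ?_)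
    simp [ha0]
  have hhN : h ∈ 𝒩(U) := hN h (hw ▸ pow_mem wU a) (hv' ▸ pow_mem (mul_mem vU (pow_mem wU j)) _)
  let ρ : 𝒩(U) →* Module.End (ZMod p) (EAMod hU) :=
    LinearEquiv.automorphismGroup.toLinearMapMonoidHom.comp (conjRep hU)
  have hρ : ∀ g x, (ρ g x).val = g * x.val * (g : X)⁻¹ := fun _ _ => rfl
  set ω := EAMod.mk hU w wU with hω
  set ν := EAMod.mk hU v vU with hν
  let ι : (Fin 2 → ZMod p) →ₗ[ZMod p] EAMod hU := Fintype.linearCombination (ZMod p) ![ω, ν]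
  have hι : ∀ x, ι x = x 0 • ω + x 1 • ν := fun x => by
    simp [ι, Fintype.linearCombination_apply, Fin.sum_univ_two]
  have act : ∀ (g : 𝒩(U)) (M : Matrix.SpecialLinearGroup (Fin 2) (ZMod p)),
      ρ g ω = M.1 0 0 • ω + M.1 1 0 • ν → ρ g ν = M.1 0 1 • ω + M.1 1 1 • ν →
      ∀ x, ρ g (ι x) = ι (M.1 *ᵥ x) := fun g M h1 h2 x => by
    rw [hι, hι, map_add, map_smul, map_smul, h1, h2]
    simp only [mulVec, dotProduct, Fin.sum_univ_two]
    module
  have zω : ρ ⟨z, zN⟩ ω = ω := EAMod.val_injective hU zw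
  have zν : ρ ⟨z, zN⟩ ν = ω + ν := EAMod.val_injective hU (zv.trans vw)
  have ω0 : ω ≠ 0 := fun e => w1 ((EAMod.val_eq_one hU).2 e)
  have hinj : Function.Injective ι := by
    rw [injective_iff_map_eq_zero]
    intro x hx
    have h1 := congrArg (ρ ⟨z, zN⟩) hx
    rw [hι] at hx
    rw [hι, map_add, map_smul, map_smul, zω, zν, map_zero, smul_add, add_left_comm, hx, add_zero,
      smul_eq_zero, or_iff_left ω0] at h1
    rw [h1, zero_smul, add_zero, smul_eq_zero, or_iff_left ω0] at hx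
    ext i; fin_cases i <;> assumption
  have hsurj : Function.Surjective ι := by
    rw [← LinearMap.range_eq_top, eq_top_iff, ← EAMod.sub_self hU, ← EAMod.sub_grp hU (LinearMap.range ι)]
    refine EAMod.sub_mono hU ((closure_le _).2 ?_)
    rintro _ (rfl | rfl)
    · exact ⟨ω, ⟨![1, 0], by simp [hι]⟩, rfl⟩
    · exact ⟨ν, ⟨![0, 1], by simp [hι]⟩, rfl⟩
  let e := LinearEquiv.ofBijective ι ⟨hinj, hsurj⟩
  obtain ⟨φ, hφ⟩ := exists_hom_of_intertwine ρ ι hinj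
    {g | ∃ M : Matrix.SpecialLinearGroup (Fin 2) (ZMod p), ∀ x, ρ g (ι x) = ι (M.1 *ᵥ x)} fun _ h => h
  have huniq : ∀ g M, (∀ x, ρ g.1 (ι x) = ι (M.1 *ᵥ x)) → φ g = M := fun g M hM =>
    Subtype.ext (Matrix.mulVec_injective (funext fun x => hinj ((hφ g x).symm.trans (hM x))))
  have actz : ∀ g : 𝒩(U), z⁻¹ * g ∈ 𝒞(U) → ∀ x, ρ g (ι x) = ι ((sl2Up 1).1 *ᵥ x) := fun g hg => by
    have : ∀ y, ρ g y = ρ ⟨z, zN⟩ y := fun y => EAMod.val_injective hU (by
      have := conj_eq_of_mem hg (EAMod.val_mem hU y)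
      rw [hρ, hρ]
      calc _ = z * (z⁻¹ * g * y.val * (z⁻¹ * g)⁻¹) * z⁻¹ := by group
        _ = _ := by rw [this])
    exact act g _ (by rw [this, zω]; simp [sl2Up_coe]) (by rw [this, zν]; simp [sl2Up_coe])
  have acth : ∀ x, ρ ⟨h, hhN⟩ (ι x) = ι ((sl2Bor (a : ZMod p) ha0 (j * (a : ZMod p)⁻¹)).1 *ᵥ x) := by
    refine act _ _ (EAMod.val_injective hU ?_) ?_
    · simp only [sl2Bor_coe, of_apply, cons_val', cons_val_zero, cons_val_one, cons_val_fin_one,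
        zero_smul, add_zero, EAMod.val_natCast_smul]
      exact hw
    · have : ρ ⟨h, hhN⟩ ν = (a : ZMod p)⁻¹ • (ν + (j : ZMod p) • ω) := EAMod.val_injective hU (by
        rw [EAMod.val_smul, EAMod.val_add, EAMod.val_natCast_smul]; exact hv')
      rw [this]
      simp only [sl2Bor_coe, of_apply, cons_val', cons_val_zero, cons_val_one, cons_val_fin_one]
      module
  have hS := Subgroup.subset_closure (k := {g | ∃ M : Matrix.SpecialLinearGroup (Fin 2) (ZMod p),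
    ∀ x, ρ g (ι x) = ι (M.1 *ᵥ x)}) ⟨_, acth⟩
  obtain ⟨k, hk⟩ := ha (-1) (neg_ne_zero.2 one_ne_zero)
  obtain ⟨m, hm⟩ := exists_pow_coprime (p := p) ((h ^ k) ^ p)
  set i := ((h ^ k) ^ p) ^ p ^ m with hi
  have iU : ∀ u ∈ U, i * u * i⁻¹ = u⁻¹ := fun u hu => by
    obtain ⟨x, hx⟩ := hsurj (EAMod.mk hU u hu)
    have h1 := hφ ((((⟨_, hS⟩ : Subgroup.closure _) ^ k) ^ p) ^ p ^ m) x
    obtain ⟨t, ht⟩ := sl2Bor_pow ha0 (j * (a : ZMod p)⁻¹) k
    rw [map_pow φ, map_pow φ, map_pow φ, huniq _ _ acth, ht] at h1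
    simp only [hk] at h1
    rw [sl2Bor_neg_one_pow hp2, Matrix.SpecialLinearGroup.coe_neg, Matrix.SpecialLinearGroup.coe_one,
      neg_mulVec, one_mulVec, map_neg, hx] at h1
    exact congrArg EAMod.val h1
  have iN : i ∈ 𝒩(U) := pow_mem (pow_mem (pow_mem hhN _) _) _
  have iR : i ∈ 𝒩(R) := pow_mem (pow_mem (pow_mem hh _) _) _
  obtain ⟨z₁, hz₁, hz₁'⟩ := exists_centralizer_mem_leftCoset (A := zpowers i) (K := R)
    (zpowers_le.2 iR) (by
      obtain ⟨n, hn⟩ := hR.exists_card_eq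
      rw [hn, Nat.card_zpowers]; exact hm.pow_right n)
    (Or.inr (haveI := hR.isNilpotent; inferInstance)) (N := R ⊓ 𝒞(U)) inf_le_left
    (le_norm_inf (zpowers_le.2 iR) (le_norm_cent (zpowers_le.2 iN))) hz (fun g hg => by
      refine ⟨R.mul_mem (R.inv_mem hz) (conj_mem (zpowers_le.2 iR hg) hz), ?_⟩
      obtain ⟨n, rfl⟩ := (mem_powers_iff_mem_zpowers.2 hg :)
      have key : ∀ u ∈ U, i ^ n * u * (i ^ n)⁻¹ = u ^ ((-1 : ℤ) ^ n) := by
        clear hg
        induction n with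
        | zero => simp
        | succ n ih =>
          intro u hu
          rw [pow_succ, pow_succ, _root_.mul_inv_rev, mul_neg_one, _root_.zpow_neg, ← ih u hu, conj_inv, ← iU u hu]
          group
      intro u hu
      have h1 := key _ (conj_mem' (pow_mem iN n) hu)
      have h2 := key _ (conj_mem zN (conj_mem' (pow_mem iN n) hu))
      rw [conj_zpow, ← h1] at h2
      calc _ = z⁻¹ * (z * (i ^ n * ((i ^ n)⁻¹ * u * i ^ n) * (i ^ n)⁻¹) * z⁻¹) * (i ^ n * z * (i ^ n)⁻¹) := by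
            group
        _ = _ := by rw [← h2]; group)
  have z₁N : z₁ ∈ 𝒩(U) := by simpa using mul_mem zN (cent_le_norm U hz₁'.2)
  have hS₁ := Subgroup.subset_closure (k := {g | ∃ M : Matrix.SpecialLinearGroup (Fin 2) (ZMod p),
    ∀ x, ρ g (ι x) = ι (M.1 *ᵥ x)}) ⟨_, actz ⟨z₁, z₁N⟩ hz₁'.2⟩
  set N := Subgroup.closure ({z₁, h} : Set X) with hNd
  have hNU : N ≤ 𝒩(U) := (closure_le _).2 (by rintro _ (rfl | rfl) <;> assumption)
  have hNS : ∀ n : N, inclusion hNU n ∈ Subgroup.closure {g | ∃ M : Matrix.SpecialLinearGroup (Fin 2) (ZMod p),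
      ∀ x, ρ g (ι x) = ι (M.1 *ᵥ x)} := fun ⟨n, hn⟩ => by
    induction hn using closure_induction with
    | mem x hx => rcases hx with rfl | rfl <;> assumption
    | one => exact one_mem _
    | mul x y _ _ hx hy => exact mul_mem hx hy
    | inv x _ hx => exact inv_mem hx
  have hNi : N ≤ 𝒞(zpowers i) := (closure_le _).2 (by
    rintro _ (rfl | rfl)
    · exact hz₁.2
    · refine le_centralizer_iff.1 (zpowers_le.2 ?_) (mem_zpowers _)
      rw [zpowers_eq_closure, centralizer_closure, mem_centralizer_singleton_iff]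
      exact ((((Commute.refl _).pow_left _).pow_left _).pow_left _).eq)
  let α : U →* Matrix.SpecialLinearGroup (Fin 3) (ZMod p) :=
    MonoidHom.mk' (fun u => qdAff (e.symm (EAMod.mk hU u u.2)) 1) fun u u' => by
      rw [qdAff_mul, Matrix.SpecialLinearGroup.coe_one, one_mulVec, mul_one, ← map_add]; rfl
  let β : N →* Matrix.SpecialLinearGroup (Fin 3) (ZMod p) :=
    qdLin.comp (φ.comp ((inclusion hNU).codRestrict _ hNS))
  have hd : U ⊓ N = ⊥ := by
    rw [eq_bot_iff]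
    rintro u ⟨hu, hu'⟩
    have h1 := iU u hu
    rw [comm_of_mem (hNi hu') (mem_zpowers i), mul_inv_cancel_right] at h1
    have h2 : u ^ 2 = 1 := by rw [sq]; nth_rw 1 [h1]; exact inv_mul_cancel u
    exact orderOf_eq_one_iff.1 (Nat.eq_one_of_dvd_coprimes
      ((Nat.coprime_primes Nat.prime_two hp.out).2 hp2.symm)
      (orderOf_dvd_of_pow_eq_one h2) (orderOf_dvd_of_pow_eq_one (ea_pow hU hu)))
  have h1 := involves_of_semidirect hNU hd α β fun n u u' hu => by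
    have h2 : EAMod.mk hU u' u'.2 = ρ (inclusion hNU n) (EAMod.mk hU u u.2) :=
      EAMod.val_injective hU hu
    have h3 := hφ ⟨_, hNS n⟩ (e.symm (EAMod.mk hU u u.2))
    rw [show ι (e.symm (EAMod.mk hU u u.2)) = _ from e.apply_symm_apply _, ← h2] at h3
    change qdAff (e.symm _) 1 = qdLin _ * qdTrans (Multiplicative.ofAdd _) * (qdLin _)⁻¹
    rw [qdLin_conj, h3]
    exact congrArg (qdAff · 1) (e.symm_apply_apply _)
  have hz₁N : z₁ ∈ N := Subgroup.subset_closure (by simp)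
  have hhN' : h ∈ N := Subgroup.subset_closure (by simp)
  have b1 : β ⟨z₁, hz₁N⟩ = qdLin (sl2Up 1) :=
    congrArg qdLin (huniq ⟨_, hS₁⟩ _ (actz ⟨z₁, z₁N⟩ hz₁'.2))
  have b2 : β ⟨h, hhN'⟩ = qdLin (sl2Bor (a : ZMod p) ha0 _) := congrArg qdLin (huniq ⟨_, hS⟩ _ acth)
  have h3 : α.range ⊔ β.range = fOver (ZMod p) := by
    refine le_antisymm (sup_le ?_ ?_) (fOver_eq_of ha0 ha _ (fun x => mem_sup_left ?_)
      (mem_sup_right ⟨_, b1⟩) (mem_sup_right ⟨_, b2⟩))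
    · rintro _ ⟨u, rfl⟩
      exact Subgroup.subset_closure (by simp [α, qdAff_coe])
    · rintro _ ⟨⟨n, hn⟩, rfl⟩
      induction hn using closure_induction with
      | mem x hx =>
        rcases hx with rfl | rfl
        · rw [b1]; exact Subgroup.subset_closure (by simp [qdLin_apply, qdAff_coe, sl2Up_coe])
        · rw [b2]; exact Subgroup.subset_closure (by simp [qdLin_apply, qdAff_coe, sl2Bor_coe])
      | one => exact (map_one β).symm ▸ one_mem _
      | mul x y hx' hy' hx hy => exact (map_mul β ⟨x, hx'⟩ ⟨y, hy'⟩).symm ▸ mul_mem hx hy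
      | inv x hx' hx => exact (map_inv β ⟨x, hx'⟩).symm ▸ inv_mem hx
    · exact ⟨⟨(e x).val, EAMod.val_mem hU _⟩, congrArg (qdAff · 1) (e.symm_apply_apply x)⟩
  rw [h3] at h1
  exact involves_of_involves_subgroup h1

end CL.Grp
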