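/-
The configuration behind Glauberman's Theorem C: a torus element `h` acting on a `p`-group `R` with a
section `F(p)`, the centre of the section being covered by a given subgroup `Y`.
-/
import Cfsg.Agent.Grp.FpSec
import Cfsg.Agent.Grp.MinNormal
import Cfsg.Agent.Even.LLemma
import Cfsg.Agent.Even.Gim

set_option autoImplicit false

open Cfsg Subgroup CL.Loc CL.Even
open scoped commutatorElement

namespace CL.Grp

variable {G G' : Type*} [Group G] [Group G'] {p a : ℕ}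

/-- `R⟨h⟩` has a section `⟨w, v⟩ ⋊ ⟨z, h⟩` modulo `V₀`, with `w ∈ Y` and `h` acting on `w` as `a` -/
def FpCfg (p a : ℕ) (R Y : Subgroup G) (h : G) : Prop :=
  IsPGroup p R ∧ h ∈ 𝒩(R) ∧ ∃ (V₀ : Subgroup G) (z v w : G) (j : ℕ), h ∈ 𝒩(V₀) ∧ R ≤ 𝒩(V₀) ∧
    z ∈ R ∧ v ∈ R ∧ w ∈ R ∧ w ∈ Y ∧ w ∉ V₀ ∧ w ^ p ∈ V₀ ∧ v ^ p ∈ V₀ ∧
    v * w * (w * v)⁻¹ ∈ V₀ ∧ z * w * z⁻¹ * w⁻¹ ∈ V₀ ∧ z * v * z⁻¹ * (v * w)⁻¹ ∈ V₀ ∧
    h * w * h⁻¹ * (w ^ a)⁻¹ ∈ V₀ ∧ h * v ^ a * h⁻¹ * (v * w ^ j)⁻¹ ∈ V₀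

theorem FpCfg.mono {R Y Y' : Subgroup G} {h : G} (H : FpCfg p a R Y h) (hY : Y ≤ Y') :
    FpCfg p a R Y' h := by
  obtain ⟨h1, h2, V₀, z, v, w, j, h3, h4, h5, h6, h7, h8, h9⟩ := H
  exact ⟨h1, h2, V₀, z, v, w, j, h3, h4, h5, h6, h7, hY h8, h9⟩

theorem FpCfg.map {R Y : Subgroup G} {h : G} (H : FpCfg p a R Y h) {f : G →* G'}
    (hf : Function.Injective f) : FpCfg p a (R.map f) (Y.map f) (f h) := by
  obtain ⟨h1, h2, V₀, z, v, w, j, h3, h4, h5, h6, h7, h8, h9, e1, e2, e3, e4, e5, e6, e7⟩ := H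
  refine ⟨h1.map f, le_normalizer_map f (mem_map_of_mem f h2), V₀.map f, f z, f v, f w, j,
    le_normalizer_map f (mem_map_of_mem f h3), map_le_norm_map f h4, mem_map_of_mem f h5,
    mem_map_of_mem f h6, mem_map_of_mem f h7, mem_map_of_mem f h8,
    fun e => h9 ((mem_map_iff_mem hf).1 e), ?_, ?_, ?_, ?_, ?_, ?_, ?_⟩ <;>
  simp only [← map_mul, ← map_inv, ← map_pow] <;> exact mem_map_of_mem f (by assumption)

theorem FpCfg.comap [Finite G] [Fact p.Prime] {R : Subgroup G'} {Y : Subgroup G} {h : G} {f : G →* G'}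
    (hf : Function.Surjective f) (hk : IsPGroup p f.ker) (H : FpCfg p a R (Y.map f) (f h)) :
    FpCfg p a (R.comap f) Y h := by
  obtain ⟨h1, h2, V₀, z, v, w, j, h3, h4, h5, h6, h7, ⟨w, h8, rfl⟩, h9, e1, e2, e3, e4, e5, e6, e7⟩ := H
  obtain ⟨z, rfl⟩ := hf z
  obtain ⟨v, rfl⟩ := hf v
  refine ⟨h1.comap_of_ker_isPGroup f hk, le_normalizer_comap f h2, V₀.comap f, z, v, w, j,
    le_normalizer_comap f h3, (comap_mono h4).trans (le_normalizer_comap f), h5, h6, h7, h8, h9,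
    ?_, ?_, ?_, ?_, ?_, ?_, ?_⟩ <;>
  simp only [mem_comap, map_mul, map_inv, map_pow] <;> assumption

theorem FpCfg.conj {R Y : Subgroup G} {h : G} (H : FpCfg p a R Y h) (g : G) :
    FpCfg p a (cj g R) (cj g Y) (g * h * g⁻¹) :=
  H.map (f := (MulAut.conj g).toMonoidHom) (MulAut.conj g).injective

theorem FpCfg.congr [Finite G] {R Y : Subgroup G} {h h' : G} (H : FpCfg p a R Y h)
    (e : ∀ x ∈ R, h * x * h⁻¹ = h' * x * h'⁻¹) : FpCfg p a R Y h' := by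
  obtain ⟨h1, h2, V₀, z, v, w, j, h3, h4, h5, h6, h7, h8, h9, e1, e2, e3, e4, e5, e6, e7⟩ := H
  have hR : h' ∈ 𝒩(R) := mem_normalizer_fintype fun x hx => e x hx ▸ conj_mem h2 hx
  refine ⟨h1, hR, V₀ ⊓ R, z, v, w, j, mem_normalizer_fintype fun x hx =>
    ⟨e x hx.2 ▸ conj_mem h3 hx.1, conj_mem hR hx.2⟩, le_norm_inf h4 le_normalizer, h5, h6, h7, h8,
    fun e => h9 e.1, ⟨e1, pow_mem h7 p⟩, ⟨e2, pow_mem h6 p⟩,
    ⟨e3, R.mul_mem (mul_mem h6 h7) (inv_mem (mul_mem h7 h6))⟩,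
    ⟨e4, R.mul_mem (conj_mem (le_normalizer h5) h7) (inv_mem h7)⟩,
    ⟨e5, R.mul_mem (conj_mem (le_normalizer h5) h6) (inv_mem (mul_mem h6 h7))⟩,
    ⟨e w h7 ▸ e6, R.mul_mem (conj_mem hR h7) (inv_mem (pow_mem h7 a))⟩,
    ⟨e _ (pow_mem h6 a) ▸ e7,
      R.mul_mem (conj_mem hR (pow_mem h6 a)) (inv_mem (mul_mem h6 (pow_mem h7 j)))⟩⟩

variable [Finite G] [hp : Fact p.Prime]

theorem FpCfg.involves (hp2 : p ≠ 2) (ha : ∀ x : ZMod p, x ≠ 0 → ∃ k : ℕ, (a : ZMod p) ^ k = x)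
    {R Y H : Subgroup G} {h : G} (hc : FpCfg p a R Y h) (hR : R ≤ H) (hh : h ∈ H) :
    Involves (fOver (ZMod p)) H := by
  obtain ⟨h1, h2, V₀, z, v, w, j, h3, h4, h5, h6, h7, -, h9, e1, e2, e3, e4, e5, e6, e7⟩ := hc
  set X := H ⊓ 𝒩(V₀)
  have hRX : R ≤ X := le_inf hR h4
  have : (V₀.subgroupOf X).Normal := normal_subgroupOf_of_le_normalizer inf_le_right
  let f := QuotientGroup.mk' (V₀.subgroupOf X)
  have hf : ∀ x : X, f x = 1 ↔ (x : G) ∈ V₀ := fun x => QuotientGroup.eq_one_iff x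
  refine involves_mono (inf_le_left : X ≤ H) (involves_of_involves_quotient (N := V₀.subgroupOf X)
    (involves_fOver_of_rel hp2 (R := (R.subgroupOf X).map f) (h := f ⟨h, hh, h3⟩) (z := f ⟨z, hRX h5⟩)
      (v := f ⟨v, hRX h6⟩) (w := f ⟨w, hRX h7⟩) (j := j) ha ((h1.comap_subtype).map f)
      (le_normalizer_map f (mem_map_of_mem f (le_normalizer_comap X.subtype h2)))
      (mem_map_of_mem f h5) (fun e => h9 ((hf _).1 e)) ?_ ?_ ?_ ?_ ?_ ?_ ?_))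
  · rw [← map_pow]; exact (hf _).2 e1
  · rw [← map_pow]; exact (hf _).2 e2
  all_goals rw [← mul_inv_eq_one]; simp only [← map_mul, ← map_inv, ← map_pow]; exact (hf _).2 (by assumption)

theorem relIndex_eq_of_primitive (ha : ∀ x : ZMod p, x ≠ 0 → ∃ k : ℕ, (a : ZMod p) ^ k = x)
    {H : Subgroup G} {h x : G} (hh : h ∈ H) (hx : orderOf x = p) (e : h * x * h⁻¹ = x ^ a) :
    (H ⊓ 𝒞(zpowers x)).relIndex (H ⊓ 𝒩(zpowers x)) = p - 1 := by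
  have hN : h ∈ 𝒩(zpowers x) := mem_norm_of_cj_le (by
    rw [cj_le_iff, zpowers_le, mem_cj, inv_inv, e]; exact npow_mem_zpowers x a)
  let φ := (zpowers x).normalizerMonoidHom.comp (inclusion (inf_le_right : H ⊓ 𝒩(zpowers x) ≤ _))
  have hk : φ.ker = (H ⊓ 𝒞(zpowers x)).subgroupOf (H ⊓ 𝒩(zpowers x)) := by
    ext g
    rw [← MonoidHom.comap_ker, normalizerMonoidHom_ker, mem_comap, mem_subgroupOf, mem_subgroupOf]
    exact ⟨fun e => ⟨g.2.1, e⟩, fun e => e.2⟩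
  have hs : φ.range = ⊤ := by
    rw [eq_top_iff]
    intro σ _
    obtain ⟨m, hm⟩ := mem_powers_iff_mem_zpowers.2 (σ ⟨x, mem_zpowers x⟩).2
    have hm0 : (m : ZMod p) ≠ 0 := fun h0 => by
      rw [ZMod.natCast_eq_zero_iff, ← hx, orderOf_dvd_iff_pow_eq_one] at h0
      have h1 : σ ⟨x, mem_zpowers x⟩ = 1 := Subtype.ext (hm.symm.trans h0)
      rw [MulEquiv.map_eq_one_iff] at h1
      have h2 : x = 1 := congrArg Subtype.val h1
      rw [h2, orderOf_one] at hx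
      exact hp.out.one_lt.ne hx
    obtain ⟨k, hk⟩ := ha _ hm0
    refine ⟨⟨h, hh, hN⟩ ^ k, ?_⟩
    have e' : ∀ k : ℕ, h ^ k * x * (h ^ k)⁻¹ = x ^ a ^ k := fun k => by
      induction k with
      | zero => simp
      | succ k ih => rw [pow_succ' h, pow_succ' a, pow_mul, ← e, conj_pow, ← ih]; group
    apply MulEquiv.toMonoidHom_injective
    refine (MonoidHom.eq_iff_eq_on_generator (g := (⟨x, mem_zpowers x⟩ : zpowers x)) (fun y => ?_) _ _).2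
      (Subtype.ext ?_)
    · obtain ⟨y, n, rfl⟩ := y
      exact ⟨n, rfl⟩
    · refine (e' k).trans (Eq.trans ?_ hm)
      rw [pow_eq_pow_iff_modEq, hx, ← ZMod.natCast_eq_natCast_iff, Nat.cast_pow, hk]
  rw [relIndex, ← hk, index_ker, hs, card_top, IsCyclic.card_mulAut, Nat.card_zpowers, hx,
    Nat.totient_prime hp.out]

theorem FpCfg.exists_automizer (ha : ∀ x : ZMod p, x ≠ 0 → ∃ k : ℕ, (a : ZMod p) ^ k = x)
    {R Z H : Subgroup G} {h : G} (hc : FpCfg p a R Z h) (hZ : IsPGroup p Z) (hZc : Z ≤ 𝒞(Z))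
    (hh : h ∈ H) (hhZ : h ∈ 𝒩(Z)) :
    ∃ C : Subgroup G, C ≤ Z ∧ Nat.card C = p ∧ (H ⊓ 𝒞(C)).relIndex (H ⊓ 𝒩(C)) = p - 1 := by
  obtain ⟨-, -, V₀, -, -, w, -, h3, -, -, -, -, h8, h9, -, -, -, -, -, e6, -⟩ := hc
  have hcm : ∀ x ∈ Z, ∀ y ∈ Z, Commute x y := fun x hx y hy => hZc hy x hx
  let ψ : Z →* G := MonoidHom.mk' (fun x => h * x * h⁻¹ * ((x : G) ^ a)⁻¹) fun x y => by
    have h1 := hcm _ (conj_mem hhZ y.2) _ (inv_mem (pow_mem x.2 a))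
    rw [coe_mul, (hcm _ x.2 _ y.2).mul_pow, ((hcm _ x.2 _ y.2).pow_pow a a).eq,
      mul_inv_rev, mul_assoc (h * x * h⁻¹), ← mul_assoc ((x : G) ^ a)⁻¹, ← h1.eq]
    group
  have hψ : ∀ x : Z, ψ x ∈ Z := fun x => mul_mem (conj_mem hhZ x.2) (inv_mem (pow_mem x.2 a))
  have hlt : V₀.subgroupOf Z < V₀.comap ψ := lt_of_le_of_ne
    (fun x hx => mul_mem (conj_mem h3 hx) (inv_mem (pow_mem hx a)))
    fun e => h9 (show (⟨w, h8⟩ : Z) ∈ V₀.subgroupOf Z from e ▸ e6)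
  have hni : ¬ Function.Injective ψ := fun hi => (card_lt_card_of_lt hlt).not_ge
    (Nat.card_le_card_of_injective (fun x : V₀.comap ψ => (⟨⟨ψ x, hψ x⟩, x.2⟩ : V₀.subgroupOf Z))
      fun x y e => Subtype.ext (hi (congrArg (fun t => ((t : V₀.subgroupOf Z) : Z).1) e)))
  rw [injective_iff_map_eq_one] at hni
  push Not at hni
  obtain ⟨u, hu, hu1⟩ := hni
  obtain ⟨x, hx⟩ := exists_prime_orderOf_dvd_card' (G := zpowers u) p
    ((hZ.to_subgroup _).card_eq_or_dvd.resolve_left fun e => hu1 (zpowers_eq_bot.1 (card_eq_one.1 e)))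
  have hx' : orderOf ((x : Z) : G) = p := by rw [orderOf_coe, orderOf_coe, hx]
  have h1 : ψ x = 1 := (zpowers_le (H := ψ.ker)).2 hu x.2
  exact ⟨zpowers ((x : Z) : G), zpowers_le.2 (x : Z).2, by rw [Nat.card_zpowers, hx'],
    relIndex_eq_of_primitive ha hh hx' (mul_inv_eq_one.1 h1)⟩

end CL.Grp
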