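/-
A quadratic element outside `O_p` in a `p`-minimal group produces the configuration `FpCfg` inside the
unique maximal overgroup of the Sylow subgroup.
-/
import Cfsg.Agent.Grp.FpCfg

set_option autoImplicit false

open Cfsg Subgroup CL.Loc CL.Even
open scoped commutatorElement

namespace CL.Grp

universe u

variable {G : Type*} [Group G] {p a : ℕ}

theorem exists_umax_of_not_le [Finite G] {P K X : Subgroup G} (hPK : P ≤ K) (hPX : P ≤ X)
    (h : ¬ K ≤ X) : ∃ K', K' ≤ K ∧ ¬ K' ≤ X ∧ UMax P (K' ⊓ X) K' := by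
  obtain ⟨K', ⟨h1, h2, h3⟩, hmin⟩ := (Set.toFinite {L : Subgroup G | P ≤ L ∧ L ≤ K ∧ ¬ L ≤ X}).exists_minimal
    ⟨K, hPK, le_rfl, h⟩
  refine ⟨K', h2, h3, le_inf h1 hPX, lt_of_le_of_ne inf_le_left fun e => h3 (e.ge.trans inf_le_right),
    fun Y hY hlt => le_inf hlt.le ?_⟩
  by_contra e
  exact hlt.not_ge (hmin ⟨hY, hlt.le.trans h2, e⟩ hlt.le)

variable [Finite G] [hp : Fact p.Prime]

theorem fpCfg_of_rel {M O Y : Subgroup G} {z t v w : G} (hO : IsPGroup p O) (hOM : O ≤ M)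
    (hMO : M ≤ 𝒩(O)) (hz : z ∈ M) (ht : t ∈ M) {k : ℕ} (zp : z ^ p ^ k = 1) (vO : v ∈ O ⊓ 𝒞(O))
    (wO : w ∈ O ⊓ 𝒞(O)) (wY : w ∈ Y) (w1 : w ≠ 1) (wp : w ^ p = 1) (vp : v ^ p = 1)
    (zw : z * w * z⁻¹ = w) (zv : z * v * z⁻¹ = v * w) (tw : t * w * t⁻¹ = w ^ a)
    (tv : t * v ^ a * t⁻¹ = v) :
    ∃ R h, R ≤ M ∧ h ∈ M ∧ O < R ∧ FpCfg p a R Y h := by
  have vw : Commute v w := wO.2 v vO.1
  set X := M ⊓ 𝒞(zpowers w) ⊓ cmod (zpowers v) (zpowers w) with hX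
  have tW : t ∈ 𝒩(zpowers w) := mem_norm_of_cj_le (by
    rw [cj_le_iff, zpowers_le, mem_cj, inv_inv, tw]; exact npow_mem_zpowers w a)
  have tV : t ∈ 𝒩(zpowers v) := (Subgroup.inv_mem_iff _).1 (mem_norm_of_cj_le (by
    rw [cj_le_iff, zpowers_le, mem_cj, inv_inv, inv_inv, show t⁻¹ * v * t = v ^ a by
      rw [mul_assoc, inv_mul_eq_iff_eq_mul, ← mul_inv_eq_iff_eq_mul.1 tv]]
    exact npow_mem_zpowers v a))
  have tX : zpowers t ≤ 𝒩(X) := le_norm_inf (le_norm_inf (le_norm_of_le (zpowers_le.2 ht))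
    (le_norm_cent (zpowers_le.2 tW))) (le_norm_cmod (zpowers_le.2 tV) (zpowers_le.2 tW))
  have zW : z ∈ 𝒞(zpowers w) := le_centralizer_iff.1 (zpowers_le.2 (by
    rw [zpowers_eq_closure, centralizer_closure, mem_centralizer_singleton_iff]
    exact (mul_inv_eq_iff_eq_mul.1 zw).symm)) (mem_zpowers z)
  have zX : z ∈ X := ⟨⟨hz, zW⟩, cent_le_norm _ zW, by
    rintro _ ⟨n, rfl⟩
    have : ⁅v ^ n, z⁆ = w ^ (-n) := by
      rw [commutatorElement_def, mul_assoc, mul_assoc, ← mul_assoc z, ← zpow_neg, ← conj_zpow, zv,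
        vw.mul_zpow, zpow_neg v, mul_inv_cancel_left]
    exact this ▸ zpow_mem_zpowers w _⟩
  have OW : O ≤ 𝒞(zpowers w) := le_centralizer_iff.1 (zpowers_le.2 wO.2)
  have OX : O ≤ X := le_inf (le_inf hOM OW) (le_cmod (OW.trans (cent_le_norm _))
    ((commutator_eq_bot_iff_le_centralizer.2 (zpowers_le.2 vO.2)).le.trans bot_le))
  obtain ⟨R, hR, hle⟩ := exists_isSylowIn_ge (isPGroup_sup (isPGroup_zpowers zp) hO
    ((zpowers_le.2 hz).trans hMO)) (sup_le (zpowers_le.2 zX) OX)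
  obtain ⟨l, hl, hN⟩ := hR.frattini tX (mem_zpowers t)
  have zR : z ∈ R := hle (mem_sup_left (mem_zpowers z))
  have OR : O ≤ R := le_sup_right.trans hle
  have lw : l * w * l⁻¹ = w := conj_eq_of_mem hl.1.2 (mem_zpowers w)
  obtain ⟨j, hj⟩ := mem_powers_iff_mem_zpowers.2 (inv_mem (hl.2.2 v (mem_zpowers v)))
  have lv : l * v * l⁻¹ = v * w ^ j := by
    rw [← (vw.pow_right j).symm.eq, show w ^ j = _ from hj, commutatorElement_def]; group
  refine ⟨R, l * t, hR.le.trans (inf_le_left.trans inf_le_left), mul_mem hl.1.1 ht,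
    lt_of_le_of_ne OR fun e => w1 ?_, hR.isPGroup, hN, ⊥, z, v, w, j,
    le_normalizer_of_normal (K := ⊤) trivial, le_normalizer_of_normal, zR, OR vO.1,
    OR wO.1, wY, w1, wp, vp, ?_, ?_, ?_, ?_, ?_⟩
  · rw [comm_of_mem vO.2 (e ▸ zR), mul_inv_cancel_right] at zv
    simpa using zv
  all_goals rw [mem_bot, mul_inv_eq_one]
  · exact vw
  · exact zw
  · exact zv
  · calc _ = l * (t * w * t⁻¹) * l⁻¹ := by group
      _ = _ := by rw [tw, ← conj_pow, lw]
  · calc _ = l * (t * v ^ a * t⁻¹) * l⁻¹ := by group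
      _ = _ := by rw [tv, lv]

omit hp in
theorem not_res_le_of_umax [Fact p.Prime] {Q M : Subgroup G} (hQ : IsPGroup p Q) (hU : UMax Q M ⊤)
    (hgen : ∀ x ∈ 𝒩(M), x ∈ M) : ¬ pResidualOf p ⊤ ≤ M := fun h => by
  obtain ⟨P, hP, hQP⟩ := exists_isSylowIn_ge hQ (le_top (a := Q))
  by_cases e : P = ⊤
  · exact (lt_inf_normalizer_of_isPGroup (e ▸ hP.isPGroup) hU.lt).not_ge fun x hx => hgen x hx.2
  · exact hU.not_le (le_of_syl_of_res hP (hU.le_of_ne hQP le_top e) h)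

theorem exists_fpCfg_of_quad_aux (hp2 : p ≠ 2) (ha : (a : ZMod p) ≠ 0) {O M B Y : Subgroup G} {z : G}
    [O.Normal] [B.Normal] (hO : IsPGroup p O) (hBO : B ≤ O) {k : ℕ} (hz : z ^ p ^ k = 1)
    (hU : UMax (zpowers z ⊔ O) M ⊤) (hgen : ∀ x ∉ M, zpowers z ⊔ cj x (zpowers z) ⊔ O = ⊤)
    (hq : ⁅⁅B, zpowers z⁆, zpowers z⁆ = ⊥) (hY : Y ≤ B) (hMY : M ≤ 𝒩(Y)) (hC : 𝒞(Y) ≤ M)
    (hmin : ∀ N : Subgroup G, N.Normal → N ≤ B → N ≠ ⊥ → ¬ cmod Y N ≤ M) :
    ∃ R h, R ≤ M ∧ h ∈ M ∧ O < R ∧ FpCfg p a R Y h := by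
  have hQ : IsPGroup p (zpowers z ⊔ O : Subgroup G) :=
    isPGroup_sup (isPGroup_zpowers hz) hO le_normalizer_of_normal
  have zM : z ∈ M := hU.le (mem_sup_left (mem_zpowers z))
  have OM : O ≤ M := le_sup_right.trans hU.le
  have hres := not_res_le_of_umax hQ hU fun x hx => by
    by_contra e
    exact hU.not_le ((hgen x e).ge.trans (sup_le (sup_le (zpowers_le.2 zM)
      (cj_le_of_le (zpowers_le.2 zM) hx)) OM))
  have hresY : ¬ pResidualOf p ⊤ ≤ 𝒞(Y) := fun e => hres (e.trans hC)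
  obtain ⟨V, hV, hVB⟩ := exists_isMinNormal_le B (by
    rintro rfl
    exact hresY (by rw [le_bot_iff.1 hY]; exact le_centralizer_iff.1 bot_le))
  have := hV.normal
  have hVp : IsPGroup p V := hO.to_le (hVB.trans hBO)
  have hVe := hV.isElementaryAbelian_of_isPGroup hVp
  have hOV : O ≤ 𝒞(V) := hV.le_centralizer_of_isNilpotent hO.isNilpotent
  have hYV : pResidualOf p ⊤ ≤ cmod Y V := by
    rw [← hU.sup_eq le_top (hmin V this hVB hV.ne_bot)]
    exact res_sup_le_of_isPGroup hQ (le_norm_cmod (hU.le.trans hMY) le_normalizer_of_normal)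
  have hresV : ¬ pResidualOf p ⊤ ≤ 𝒞(V) := fun e =>
    hresY (res_le_cent hVp (commutator_le_of_le_cmod hYV) e)
  obtain ⟨x, -, hx⟩ := SetLike.not_le_iff_exists.1 hU.not_le
  have hN : ∀ g : G, g ∈ 𝒩(V) := fun g => le_normalizer_of_normal (K := ⊤) trivial
  let ρ : G →* Module.End (ZMod p) (EAMod hVe) :=
    LinearEquiv.automorphismGroup.toLinearMapMonoidHom.comp
      ((conjRep hVe).comp ((MonoidHom.id G).codRestrict _ hN))
  have hρ : ∀ g x, (ρ g x).val = g * x.val * g⁻¹ := fun _ _ => rfl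
  have hρ1 : ∀ g, ρ g = 1 ↔ g ∈ 𝒞(V) := fun g =>
    ⟨fun h v hv => (mul_inv_eq_iff_eq_mul.1 (congrArg EAMod.val
      (LinearMap.congr_fun h (EAMod.mk hVe v hv)))).symm,
    fun h => LinearMap.ext fun v => EAMod.val_injective hVe (conj_eq_of_mem h (EAMod.val_mem hVe v))⟩
  have hq' : ∀ g : G, ⁅⁅B, zpowers g⁆, zpowers g⁆ = ⊥ → (ρ g - 1) * (ρ g - 1) = 0 := fun g hg =>
    conjRep_quad hVe ⟨g, hN g⟩ fun v hv => (commutator_eq_bot_iff_le_centralizer.1 hg
      (commutator_mem_commutator (hVB hv) (mem_zpowers g)) g (mem_zpowers g)).symm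
  have hzx : cj x (zpowers z) = zpowers (x * z * x⁻¹) := MonoidHom.map_zpowers _ _
  obtain ⟨z', t, i, ⟨k', hz'⟩, hi, H⟩ := exists_torus_of_quad_irr hp2 ρ (a := z) (b := x * z * x⁻¹)
    (hq' z hq) (hq' _ (by
      rw [← hzx, ← cj_eq (le_normalizer_of_normal (K := ⊤) (H := B) (mem_top x)), ← cj_commutator,
        ← cj_commutator, hq, cj_bot]))
    (fun g => by
      obtain ⟨h, hh, o, ho, rfl⟩ := (mem_sup_nr le_normalizer_of_normal).1 ((hgen x hx).ge (mem_top g))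
      refine ⟨h, ?_, by rw [map_mul, (hρ1 o).2 (hOV ho), mul_one]⟩
      rwa [hzx, zpowers_eq_closure, zpowers_eq_closure, ← Subgroup.closure_union] at hh)
    (fun U hU' => by
      have : (EAMod.grp U).Normal := ⟨by
        rintro _ ⟨u, hu, rfl⟩ g
        exact ⟨_, hU' g u hu, rfl⟩⟩
      rcases hV.min _ this (EAMod.grp_le hVe U) with h | h
      · left; rw [← EAMod.sub_grp hVe U, h, EAMod.sub_bot]
      · right; rw [← EAMod.sub_grp hVe U, h, EAMod.sub_self])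
    (by
      by_contra! h
      exact hresV (res_le_of_pow fun g _ => (h g).imp fun k hk => (hρ1 _).1 (by rwa [map_pow])))
    ⟨k, hz⟩ ha
  have hW : ∀ w : EAMod hVe, ρ z w = w ↔ w.val ∈ V ⊓ 𝒞(zpowers z) := fun w => by
    rw [← EAMod.val_inj, hρ, mul_inv_eq_iff_eq_mul, mem_inf, and_iff_right (EAMod.val_mem hVe w),
      zpowers_eq_closure, centralizer_closure, mem_centralizer_singleton_iff, eq_comm]
  have hNW : 𝒩(V ⊓ 𝒞(zpowers z)) ≤ M := by
    refine (top_inf_eq 𝒩(V ⊓ 𝒞(zpowers z))).ge.trans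
      (hU.inf_norm_le (sup_le (le_norm_inf le_normalizer_of_normal (le_norm_cent le_normalizer))
        ((le_centralizer_iff.1 (inf_le_left.trans (le_centralizer_iff.1 hOV))).trans (cent_le_norm _)))
        fun h => ?_)
    rcases hV.min _ (normalizer_eq_top_iff.1 (top_le_iff.1 h)) inf_le_left with h' | h'
    · exact inf_cent_ne_bot hVp (isPGroup_zpowers hz) le_normalizer_of_normal hV.ne_bot h'
    · have h1 : zpowers z ≤ 𝒞(V) := le_centralizer_iff.1 (h'.ge.trans inf_le_right)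
      exact hresV (le_top.trans ((hgen x hx).ge.trans (sup_le (sup_le h1 (cj_le_of_le h1
        (le_normalizer_of_normal (K := ⊤) trivial))) hOV)))
  have hM : ∀ g : G, (∀ w, ρ z w = w → ∃ c : ZMod p, ρ g w = c • w) → g ∈ M := fun g hg =>
    hNW (mem_normalizer_fintype fun w hw => by
      obtain ⟨c, hc⟩ := hg (EAMod.mk hVe w hw.1) ((hW _).2 hw)
      have := congrArg EAMod.val hc
      rw [hρ, EAMod.val_smul, EAMod.val_mk] at this
      exact this ▸ pow_mem hw _)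
  have hYV' : Y ⊓ V ≠ ⊥ := fun e => by
    obtain ⟨m, hm⟩ := exists_pow_coprime (p := p) i
    have hi' : ∀ y, ρ (i ^ p ^ m) y = -y := fun y => by
      have : ρ i = -1 := LinearMap.ext hi
      rw [map_pow, this, ((hp.out.odd_of_ne_two hp2).pow (n := m)).neg_one_pow]; rfl
    have h1 : ∀ g : G, g⁻¹ * i ^ p ^ m * g ∈ 𝒞(Y) := fun g y hy => by
      have h2 : g⁻¹ * i ^ p ^ m * g ∈ M := hM _ fun w _ => ⟨-1, by
        rw [map_mul, map_mul, Module.End.mul_apply, Module.End.mul_apply, hi', map_neg,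
          ← Module.End.mul_apply, ← map_mul, inv_mul_cancel, map_one, neg_smul, one_smul]; rfl⟩
      have h3 : ⁅y, g⁻¹ * i ^ p ^ m * g⁆ ∈ Y ⊓ V :=
        ⟨commutator_le_of_le_norm hMY (commutator_mem_commutator hy h2),
          (hYV (mem_res (mem_top _) (by
            rwa [← (MulAut.conj g).orderOf_eq, MulAut.conj_apply, show g * (g⁻¹ * i ^ p ^ m * g) * g⁻¹ =
              i ^ p ^ m by group]))).2 y hy⟩
      rw [e, mem_bot, commutatorElement_eq_one_iff_mul_comm] at h3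
      exact h3
    refine hresY fun g hg y hy => ?_
    have h2 : ⁅y, g⁆ ∈ V := (hYV hg).2 y hy
    have h3 := congrArg EAMod.val (hi' (EAMod.mk hVe _ h2))
    rw [hρ, EAMod.val_neg, EAMod.val_mk] at h3
    have h4 : i ^ p ^ m * ⁅y, g⁆ * (i ^ p ^ m)⁻¹ = ⁅y, g⁆ := by
      have h5 := h1 1 y hy
      have h6 := h1 g y⁻¹ (inv_mem hy)
      rw [inv_one, one_mul, mul_one] at h5
      calc _ = (i ^ p ^ m * y) * g * y⁻¹ * g⁻¹ * (i ^ p ^ m)⁻¹ := by rw [commutatorElement_def]; group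
        _ = y * g * (g⁻¹ * i ^ p ^ m * g * y⁻¹) * g⁻¹ * (i ^ p ^ m)⁻¹ := by rw [← h5]; group
        _ = _ := by rw [← h6, commutatorElement_def]; group
    rw [h4] at h3
    have h7 : ⁅y, g⁆ ^ 2 = 1 := by rw [sq]; nth_rw 1 [h3]; exact inv_mul_cancel _
    exact commutatorElement_eq_one_iff_mul_comm.1 (orderOf_eq_one_iff.1 (Nat.eq_one_of_dvd_coprimes
      ((Nat.coprime_primes Nat.prime_two hp.out).2 hp2.symm)
      (orderOf_dvd_of_pow_eq_one h7) (orderOf_dvd_of_pow_eq_one (ea_pow hVe h2))))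
  obtain ⟨⟨w, hw⟩, w1⟩ := ne_bot_iff_exists_ne_one.1 (inf_cent_ne_bot hVp.to_inf_right
    (isPGroup_zpowers hz) (le_norm_inf ((zpowers_le.2 zM).trans hMY) le_normalizer_of_normal) hYV')
  obtain ⟨e1, e2, v, e3, e4⟩ := H (EAMod.mk hVe w hw.1.2) ((hW _).2 ⟨hw.1.2, hw.2⟩)
  have hVO : V ≤ O ⊓ 𝒞(O) := le_inf (hVB.trans hBO) (le_centralizer_iff.1 hOV)
  refine fpCfg_of_rel hO OM le_normalizer_of_normal
    (hM z' fun w hw => ⟨1, by rw [(H w hw).1, one_smul]⟩) (hM t fun w hw => ⟨_, (H w hw).2.1⟩) hz'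
    (hVO (EAMod.val_mem hVe v)) (hVO hw.1.2) hw.1.1 (fun e => w1 (Subtype.ext e)) (ea_pow hVe hw.1.2)
    (ea_pow hVe (EAMod.val_mem hVe v)) (congrArg EAMod.val e1) (congrArg EAMod.val e3) ?_ ?_
  · have := congrArg EAMod.val e2
    rwa [EAMod.val_natCast_smul] at this
  · rw [← EAMod.val_natCast_smul, ← hρ, map_smul, e4, smul_smul, mul_inv_cancel₀ ha, one_smul]

theorem exists_fpCfg_of_quad_top (hp2 : p ≠ 2) (ha : (a : ZMod p) ≠ 0) (L : Type u) [Group L] [Finite L] :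
    ∀ {O M B Y : Subgroup L} {z : L} [O.Normal] [B.Normal], IsPGroup p O → B ≤ O → ∀ {k : ℕ},
    z ^ p ^ k = 1 → UMax (zpowers z ⊔ O) M ⊤ → (∀ x ∉ M, zpowers z ⊔ cj x (zpowers z) ⊔ O = ⊤) →
    ⁅⁅B, zpowers z⁆, zpowers z⁆ = ⊥ → Y ≤ B → M ≤ 𝒩(Y) → 𝒞(Y) ≤ M →
    ∃ R h, R ≤ M ∧ h ∈ M ∧ O < R ∧ FpCfg p a R Y h := by
  refine induction_on_card (P := fun L _ _ => ∀ {O M B Y : Subgroup L} {z : L} [O.Normal] [B.Normal],
    IsPGroup p O → B ≤ O → ∀ {k : ℕ},
    z ^ p ^ k = 1 → UMax (zpowers z ⊔ O) M ⊤ → (∀ x ∉ M, zpowers z ⊔ cj x (zpowers z) ⊔ O = ⊤) →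
    ⁅⁅B, zpowers z⁆, zpowers z⁆ = ⊥ → Y ≤ B → M ≤ 𝒩(Y) → 𝒞(Y) ≤ M →
    ∃ R h, R ≤ M ∧ h ∈ M ∧ O < R ∧ FpCfg p a R Y h) (fun L _ _ ih => ?_) L
  intro O M B Y z _ _ hO hBO k hz hU hgen hq hY hMY hC
  by_cases hmin : ∀ N : Subgroup L, N.Normal → N ≤ B → N ≠ ⊥ → ¬ cmod Y N ≤ M
  · exact exists_fpCfg_of_quad_aux hp2 ha hO hBO hz hU hgen hq hY hMY hC hmin
  push Not at hmin
  obtain ⟨N, _, hNB, hN, hNM⟩ := hmin
  let f := QuotientGroup.mk' N
  have hf : Function.Surjective f := QuotientGroup.mk'_surjective N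
  have hk : f.ker ≤ O := (QuotientGroup.ker_mk' N).le.trans (hNB.trans hBO)
  have hkM : f.ker ≤ M := hk.trans (le_sup_right.trans hU.le)
  have := Normal.map ‹O.Normal› f hf
  have := Normal.map ‹B.Normal› f hf
  obtain ⟨R, h, hR, ⟨h, hh, rfl⟩, hOR, H⟩ := @ih (L ⧸ N) _ _ (card_quotient_lt hN) (O.map f)
    (M.map f) (B.map f) (Y.map f) (f z) _ _ (hO.map f) (map_mono hBO) k
    (by rw [← map_pow, hz, map_one])
    (by simpa only [Subgroup.map_sup, MonoidHom.map_zpowers, map_top_of_surjective f hf] using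
      hU.map f (inf_le_left.trans hkM))
    (fun x hx => by
      obtain ⟨x, rfl⟩ := hf x
      have := congrArg (Subgroup.map f) (hgen x fun e => hx (mem_map_of_mem f e))
      rw [Subgroup.map_sup, Subgroup.map_sup, map_top_of_surjective f hf,
        show cj x (zpowers z) = zpowers (x * z * x⁻¹) from MonoidHom.map_zpowers _ _,
        MonoidHom.map_zpowers, MonoidHom.map_zpowers] at this
      rw [show cj (f x) (zpowers (f z)) = zpowers (f x * f z * (f x)⁻¹) from MonoidHom.map_zpowers _ _]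
      simpa only [map_mul, map_inv] using this)
    (by rw [← MonoidHom.map_zpowers, ← map_commutator, ← map_commutator, hq, Subgroup.map_bot])
    (map_mono hY) (map_le_norm_map f hMY)
    (fun x hx => by
      obtain ⟨x, rfl⟩ := hf x
      refine mem_map_of_mem f (hNM ⟨le_normalizer_of_normal (K := ⊤) trivial, fun y hy => ?_⟩)
      rw [← QuotientGroup.ker_mk' N, MonoidHom.mem_ker, map_commutatorElement,
        commutatorElement_eq_one_iff_mul_comm]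
      exact hx _ (mem_map_of_mem f hy))
  refine ⟨R.comap f, h, ?_, hh, ?_, H.comap hf (hO.to_le hk)⟩
  · exact (comap_mono hR).trans (comap_map_eq_self hkM).le
  · exact (le_comap_map f O).trans_lt ((comap_lt_comap_of_surjective hf).2 hOR)

/-- **Key lemma.** -/
theorem exists_fpCfg_of_quad (hp2 : p ≠ 2) (ha : (a : ZMod p) ≠ 0) {P M K B Y : Subgroup G}
    (hU : UMax P M K) (hP : IsSylowIn p P K) (hB : B ≤ pCoreOf p K) (hn : K ≤ 𝒩(B)) (hY : Y ≤ B)
    (hMY : M ≤ 𝒩(Y)) (hC : K ⊓ 𝒞(Y) ≤ M) {z : G} (hz : z ∈ P) (hzO : z ∉ pCoreOf p K)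
    (hq : ⁅⁅B, zpowers z⁆, zpowers z⁆ = ⊥) :
    ∃ R h, R ≤ P ∧ h ∈ M ∧ pCoreOf p K < R ∧ FpCfg p a R Y h := by
  obtain ⟨g, hg, L, hL, h1, h2, h3, -⟩ := lLemma hU hP
    (fun e => hzO (le_core hP.le hP.isPGroup e hz)) (zpowers_le.2 hz) (by rwa [zpowers_le])
  have zL : z ∈ L := h1 (mem_sup_left (mem_zpowers z))
  have OL : pCoreOf p K ≤ pCoreOf p L := core_le_core_of_le (le_sup_right.trans h1) hL
  have BL : B ≤ L := hB.trans (OL.trans (core_le L))
  have YB : cj g Y ≤ B := cj_le_of_le hY (hn hg)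
  obtain ⟨k, hk⟩ := isPGroup_iff_forall.1 hP.isPGroup z hz
  have := normal_subgroupOf_of_le_normalizer (hL.trans hn)
  have hi := map_injective L.subtype_injective
  have hzz : (zpowers (⟨z, zL⟩ : L)).map L.subtype = zpowers z := MonoidHom.map_zpowers _ _
  obtain ⟨R, h, hR, hh, hOR, H⟩ := exists_fpCfg_of_quad_top hp2 ha L (O := pCore p L)
    (M := (cj g M).subgroupOf L) (B := B.subgroupOf L) (Y := (cj g Y).subgroupOf L) (z := ⟨z, zL⟩)
    pCore_isP (subgroupOf_core (p := p) L ▸ comap_mono (hB.trans OL)) (k := k) (Subtype.ext hk)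
    (by rw [umax_subtype_iff, Subgroup.map_sup, hzz, core_def, subgroupOf_map_subtype, inf_comm]; exact h2)
    (fun x hx => hi (by
      rw [Subgroup.map_sup, Subgroup.map_sup, core_def, hzz, map_subtype_top]
      refine Eq.trans ?_ (h3 x x.2 hx)
      rw [show cj x (zpowers (⟨z, zL⟩ : L)) = zpowers _ from MonoidHom.map_zpowers _ _,
        show cj (x : G) (zpowers z) = zpowers _ from MonoidHom.map_zpowers _ _, MonoidHom.map_zpowers]
      rfl))
    (hi (by rw [map_commutator, map_commutator, hzz, map_subgroupOf_eq_of_le BL, hq, Subgroup.map_bot]))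
    (comap_mono YB) ((comap_mono ((cj_mono g hMY).trans (cj_norm g Y).le)).trans (le_normalizer_comap _))
    (fun x hx => by
      have : (x : G) ∈ cj g (K ⊓ 𝒞(Y)) := by
        rw [cj_inf, cj_cent, cj_eq (le_normalizer hg)]
        exact ⟨hL x.2, fun y hy => congrArg Subtype.val (hx ⟨y, BL (YB hy)⟩ hy)⟩
      exact cj_mono g hC this)
  have H1 := (H.map L.subtype_injective).conj g⁻¹
  rw [map_subgroupOf_eq_of_le (YB.trans BL), cj_inv_cj] at H1
  have hR1 : cj g⁻¹ (R.map L.subtype) ≤ M := by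
    rw [cj_le_iff, inv_inv]; exact map_le_iff_le_comap.2 hR
  obtain ⟨m, hm, hmP⟩ := syl_conj_le (hP.of_le hU.le hU.le_top) H1.1 hR1
  have H2 := H1.conj m
  rw [cj_eq (hMY hm)] at H2
  refine ⟨_, _, hmP, mul_mem (mul_mem hm ?_) (inv_mem hm), ?_, H2⟩
  · rw [inv_inv]; exact mem_cj.1 hh
  · rw [← cj_eq (self_le_norm_core K (hU.le_top hm)), ← cj_eq (self_le_norm_core K (inv_mem hg)),
      cj_lt_cj, cj_lt_cj]
    exact (OL.trans (core_def L).ge).trans_lt ((map_lt_map_iff_of_injective L.subtype_injective).2 hOR)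

end CL.Grp
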